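import Groth.Agent.Ega2.H302.AwayPoly
import Groth.Agent.Ega2.H299.DomBasic
import Mathlib.AlgebraicGeometry.Morphisms.FiniteType
import Mathlib.AlgebraicGeometry.Morphisms.QuasiCompact
import Mathlib.AlgebraicGeometry.ResidueField
import Mathlib.AlgebraicGeometry.Pullbacks
import Mathlib.Algebra.Category.Ring.Constructions
import Mathlib.RingTheory.PolynomialAlgebra

/-!
# The retraction of the pointed projective cone: finite type, fibres are affine lines
-/

set_option autoImplicit false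
universe u
open CategoryTheory CategoryTheory.Limits AlgebraicGeometry HomogeneousLocalization

namespace Groth.Agent.Ega2.H302.ConeFibre

/-- Base change of the affine line along a ring map. -/
theorem isPushout_polynomial {L K : Type u} [CommRing L] [CommRing K] (ρ : L →+* K) :
    IsPushout (CommRingCat.ofHom (Polynomial.C : L →+* Polynomial L)) (CommRingCat.ofHom ρ)
      (CommRingCat.ofHom (Polynomial.mapRingHom ρ)) (CommRingCat.ofHom (Polynomial.C : K →+* Polynomial K)) := by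
  algebraize [ρ, Polynomial.mapRingHom ρ]
  exact (CommRingCat.isPushout_of_isPushout L K (Polynomial L) (Polynomial K)).flip

variable {R A : Type u} [CommRing R] [CommRing A] [Algebra R A] {𝒜 : ℕ → Submodule R A} [GradedAlgebra 𝒜]
    {B : Type u} [CommRing B] [Algebra R B] {ℬ : ℕ → Submodule R B} [GradedAlgebra ℬ]
    {φ : 𝒜 →+*ᵍ ℬ} {p : (PCone.dom φ : Scheme.{u}) ⟶ Proj 𝒜}
    (hp : ∀ (d : ℕ) (f : A) (hd : 0 < d) (hf : f ∈ 𝒜 d),
        PCone.chart φ hf hd ≫ p =
          Spec.map (CommRingCat.ofHom (HomogeneousLocalization.Away.map φ f)) ≫ Proj.awayι 𝒜 f hf hd)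

include hp in
/-- The chart is the base change of `p` to `D_+(f)`. -/
theorem isPullback_chart {d : ℕ} {f : A} (hd : 0 < d) (hf : f ∈ 𝒜 d) :
    IsPullback (Spec.map (CommRingCat.ofHom (HomogeneousLocalization.Away.map φ f)))
      (PCone.chart φ hf hd) (Proj.awayι 𝒜 f hf hd) p := by
  refine IsOpenImmersion.isPullback _ _ _ _ (hp d f hd hf) ?_
  rw [Proj.opensRange_awayι, H299.DomBasic.preimage_basicOpen hp hd hf,
    H299.DomBasic.opensRange_chart φ hf hd]

variable [Algebra A B] (hφ : ∀ a : A, φ a = algebraMap A B a)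
    {z : B} (hz : z ∈ ℬ 1) (hhat : Function.Bijective (Polynomial.aeval (R := A) z))

include hφ hz hhat in
/-- The chart of `Ê` over `D_+(f)`, `f` of degree one, is an affine line. -/
theorem exists_iso {f : A} (hf : f ∈ 𝒜 1) :
    ∃ e : CommRingCat.of (Polynomial (Away 𝒜 f)) ≅ CommRingCat.of (Away ℬ (φ f)),
      CommRingCat.ofHom (Polynomial.C : Away 𝒜 f →+* Polynomial (Away 𝒜 f)) ≫ e.hom =
        CommRingCat.ofHom (Away.map φ f) := by
  refine ⟨(RingEquiv.ofBijective (AwayPoly.polyMap φ hz hf)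
    ⟨AwayPoly.polyMap_injective φ hφ hz hhat hf, AwayPoly.polyMap_surjective φ hφ hz hhat hf⟩).toCommRingCatIso, ?_⟩
  ext x
  exact congrArg HomogeneousLocalization.val (AwayPoly.polyMap_C φ hz hf x)

include hφ hz hhat hp in
/-- `Ê` over `D_+(f)`, `f` of degree one, is an affine line. -/
theorem isPullback_line {f : A} (hf : f ∈ 𝒜 1) :
    ∃ c : Spec (CommRingCat.of (Polynomial (Away 𝒜 f))) ⟶ (PCone.dom φ : Scheme.{u}),
      IsPullback (Spec.map (CommRingCat.ofHom (Polynomial.C : Away 𝒜 f →+* Polynomial (Away 𝒜 f))))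
        c (Proj.awayι 𝒜 f hf Nat.one_pos) p := by
  obtain ⟨e, he⟩ := exists_iso hφ hz hhat hf
  refine ⟨Spec.map e.inv ≫ PCone.chart φ hf Nat.one_pos, ?_⟩
  refine (isPullback_chart hp Nat.one_pos hf).of_iso (Scheme.Spec.mapIso e.symm.op).symm (Iso.refl _)
    (Iso.refl _) (Iso.refl _) ?_ ?_ ?_ ?_
  · rw [← he]
    simp
  · simp only [Iso.symm_hom, Functor.mapIso_inv, Iso.op_inv, Iso.symm_inv, Iso.refl_hom, Category.comp_id]
    rw [← Category.assoc]
    change _ = (Spec.map e.hom ≫ Spec.map e.inv) ≫ _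
    rw [← Spec.map_comp, e.inv_hom_id, Spec.map_id, Category.id_comp]
  · simp
  · simp

omit [Algebra A B] in
theorem range_le (hgen : (HomogeneousIdeal.irrelevant 𝒜).toIdeal = Ideal.span (𝒜 1 : Set A)) :
    (HomogeneousIdeal.irrelevant 𝒜).toIdeal ≤ Ideal.span (Set.range (fun f : 𝒜 1 => (f : A))) := by
  rw [hgen]
  apply Ideal.span_mono
  intro f hf
  exact ⟨⟨f, hf⟩, rfl⟩

include hφ hz hhat hp in
theorem locallyOfFiniteType (hgen : (HomogeneousIdeal.irrelevant 𝒜).toIdeal = Ideal.span (𝒜 1 : Set A)) :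
    LocallyOfFiniteType p := by
  let 𝒰 := Proj.affineOpenCoverOfIrrelevantLESpan 𝒜 (ι := 𝒜 1) (fun f => (f : A)) (m := fun _ => 1)
    (fun f => f.2) (fun _ => Nat.one_pos) (range_le hgen)
  refine (IsZariskiLocalAtTarget.iff_of_openCover (P := @LocallyOfFiniteType) 𝒰.openCover).mpr fun (f : 𝒜 1) => ?_
  change LocallyOfFiniteType (pullback.snd p (Proj.awayι 𝒜 (f : A) f.2 Nat.one_pos))
  obtain ⟨c, hc⟩ := isPullback_line hp hφ hz hhat f.2
  have h1 : LocallyOfFiniteType (Spec.map (CommRingCat.ofHom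
      (Polynomial.C : Away 𝒜 (f : A) →+* Polynomial (Away 𝒜 (f : A))))) := by
    rw [HasRingHomProperty.Spec_iff (P := @LocallyOfFiniteType)]
    have : Algebra.FiniteType (Away 𝒜 (f : A)) (Polynomial (Away 𝒜 (f : A))) := inferInstance
    exact (RingHom.finiteType_algebraMap (A := Away 𝒜 (f : A)) (B := Polynomial (Away 𝒜 (f : A)))).mpr this
  rw [← hc.flip.isoPullback_inv_snd]
  infer_instance

include hφ hz hhat hp in
theorem fibre (hgen : (HomogeneousIdeal.irrelevant 𝒜).toIdeal = Ideal.span (𝒜 1 : Set A)) (x : Proj 𝒜) :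
    ∃ e : pullback p ((Proj 𝒜).fromSpecResidueField x) ≅
          Spec (CommRingCat.of (Polynomial ((Proj 𝒜).residueField x))),
        e.hom ≫ Spec.map (CommRingCat.ofHom (algebraMap ((Proj 𝒜).residueField x)
          (Polynomial ((Proj 𝒜).residueField x)))) = pullback.snd p ((Proj 𝒜).fromSpecResidueField x) := by
  have hx : ∃ f : 𝒜 1, x ∈ Proj.basicOpen 𝒜 (f : A) := by
    have h1 := Proj.iSup_basicOpen_eq_top 𝒜 (fun f : 𝒜 1 => (f : A)) (range_le hgen)
    exact TopologicalSpace.Opens.mem_iSup.mp (h1.ge (Set.mem_univ x))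
  obtain ⟨⟨f, hf⟩, hx⟩ := hx
  obtain ⟨c, hc⟩ := isPullback_line hp hφ hz hhat hf
  have hr : Set.range ((Proj 𝒜).fromSpecResidueField x).base ⊆ Set.range (Proj.awayι 𝒜 f hf Nat.one_pos).base := by
    rw [Scheme.range_fromSpecResidueField]
    rintro _ rfl
    rw [← Proj.opensRange_awayι 𝒜 f hf Nat.one_pos] at hx
    exact hx
  obtain ⟨ρ, hρ⟩ := Spec.map_surjective (IsOpenImmersion.lift _ _ hr)
  have hρ' : Spec.map ρ ≫ Proj.awayι 𝒜 f hf Nat.one_pos = (Proj 𝒜).fromSpecResidueField x := by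
    rw [hρ]; exact IsOpenImmersion.lift_fac _ _ _
  have h1 := isPullback_SpecMap_of_isPushout _ _ _ _ (isPushout_polynomial ρ.hom)
  have h2 := h1.paste_horiz hc.flip
  change IsPullback _ _ _ (Spec.map ρ ≫ Proj.awayι 𝒜 f hf Nat.one_pos) at h2
  rw [hρ'] at h2
  exact ⟨h2.isoPullback.symm, h2.isoPullback_inv_snd⟩

end Groth.Agent.Ega2.H302.ConeFibre
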